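import Mathlib
import Cfsg.Agent.Lib.Helper61.QB.DefsG

set_option autoImplicit false

namespace Cfsg.Agent.Lib.Helper54.QB

open Cfsg.Agent.Lib.Helper61.QB

universe u

variable {G : Type u} [Group G] [Finite G] {q : ℕ} [Fact q.Prime]

/-- [B2] -/
theorem exists_lift_q (N : Subgroup G) [N.Normal] (y : G ⧸ N) (hy : IsQ q y) :
    ∃ x : G, IsQ q x ∧ (x : G ⧸ N) = y := by
  have hq : q.Prime := Fact.out
  obtain ⟨g, rfl⟩ := QuotientGroup.mk_surjective y
  obtain ⟨k, hk⟩ := hy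
  obtain ⟨j, m, hm, hjm⟩ := Nat.exists_eq_pow_mul_and_not_dvd (orderOf_pos g).ne' q hq.ne_one
  have hco : Nat.Coprime (q ^ j) m := Nat.Coprime.pow_left _ ((Nat.Prime.coprime_iff_not_dvd hq).mpr hm)
  obtain ⟨e, he1, he0⟩ := Nat.chineseRemainder hco 1 0
  have hme : m ∣ e := (Nat.modEq_zero_iff_dvd).mp he0
  refine ⟨g ^ e, ?_, ?_⟩
  · have h1 : (g ^ e) ^ (q ^ j) = 1 := by
      rw [← pow_mul]
      apply orderOf_dvd_iff_pow_eq_one.mp
      rw [hjm, mul_comm e]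
      exact Nat.mul_dvd_mul_left _ hme
    obtain ⟨i, _, hi⟩ := (Nat.dvd_prime_pow hq).mp (orderOf_dvd_of_pow_eq_one h1)
    exact ⟨i, hi⟩
  · have hd : orderOf (g : G ⧸ N) ∣ orderOf g := orderOf_map_dvd (QuotientGroup.mk' N) g
    rw [hk, hjm] at hd
    have hd2 : q ^ k ∣ q ^ j :=
      Nat.Coprime.dvd_of_dvd_mul_right (Nat.Coprime.pow_left _ ((Nat.Prime.coprime_iff_not_dvd hq).mpr hm)) hd
    have he : e ≡ 1 [MOD orderOf (g : G ⧸ N)] := by
      rw [hk]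
      exact he1.of_dvd hd2
    have := pow_eq_pow_iff_modEq.mpr he
    rw [pow_one] at this
    rw [QuotientGroup.mk_pow]
    exact this

end Cfsg.Agent.Lib.Helper54.QB
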