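import Mathlib
import Cfsg.Agent.Lib.Helper61.QB.DefsG
import Cfsg.Agent.Lib.Lead.Cores
import Cfsg.Agent.Lib.Helper69.CoprimeIndex

set_option autoImplicit false

namespace Cfsg.Agent.Lib.Helper54.QB

open Cfsg.Agent.Lib.Helper61.QB

universe u

variable {G : Type u} [Group G] [Finite G] {q : ℕ} [Fact q.Prime]

/-- [G1a] -/
theorem mem_pCore_of_index_pow (x : G) (hx : IsQ q x) {a : ℕ} (h : idx x = q ^ a) :
    x ∈ Cfsg.pCore q G := by
  have hq : q.Prime := Fact.out
  obtain ⟨k, hk⟩ := hx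
  have hP : IsPGroup q (Subgroup.zpowers x) := IsPGroup.of_card (n := k) (by rw [Nat.card_zpowers, hk])
  obtain ⟨Q1, hQ1⟩ := hP.exists_le_sylow
  have hxQ : x ∈ Q1 := hQ1 (Subgroup.mem_zpowers x)
  have hco : (Subgroup.centralizer ({x} : Set G)).index.Coprime (Q1 : Subgroup G).index := by
    have h' : (Subgroup.centralizer ({x} : Set G)).index = q ^ a := h
    rw [h']
    exact Nat.Coprime.pow_left _ ((Nat.Prime.coprime_iff_not_dvd hq).mpr Q1.not_dvd_index)
  have hle : Subgroup.normalClosure ({x} : Set G) ≤ Q1 := by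
    unfold Subgroup.normalClosure
    rw [Subgroup.closure_le]
    intro y hy
    obtain ⟨z, hz, hzy⟩ := Group.mem_conjugatesOfSet_iff.mp hy
    rw [Set.mem_singleton_iff] at hz
    subst hz
    obtain ⟨g, rfl⟩ := isConj_iff.mp hzy
    obtain ⟨u, hu, c, hc, rfl⟩ :=
      Cfsg.Agent.Lib.Helper69.exists_mul_of_coprime_index _ _ hco g
    have hc' : z * c = c * z := Subgroup.mem_centralizer_iff.mp hc z (Set.mem_singleton _)
    have e : u * c * z * (u * c)⁻¹ = u * z * u⁻¹ := by
      calc u * c * z * (u * c)⁻¹ = u * (c * z) * c⁻¹ * u⁻¹ := by group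
        _ = u * (z * c) * c⁻¹ * u⁻¹ := by rw [hc']
        _ = u * z * u⁻¹ := by group
    rw [e]
    exact (Q1 : Subgroup G).mul_mem ((Q1 : Subgroup G).mul_mem hu hxQ) ((Q1 : Subgroup G).inv_mem hu)
  have hN : IsPGroup q (Subgroup.normalClosure ({x} : Set G)) := Q1.2.to_le hle
  exact Cfsg.Agent.Lib.Lead.le_pCore Subgroup.normalClosure_normal hN
    (Subgroup.subset_normalClosure (Set.mem_singleton x))

end Cfsg.Agent.Lib.Helper54.QB
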