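import Mathlib
import Cfsg.Agent.Lib.Helper61.QB.DefsG
import Cfsg.Agent.Lib.Lead.Cores

set_option autoImplicit false

namespace Cfsg.Agent.Lib.Helper54.QB

open Cfsg.Agent.Lib.Helper61.QB

universe u

variable {G : Type u} [Group G] [Finite G] {q : ℕ} [Fact q.Prime]

/-- [G1b] -/
theorem commute_pCore_of_coprime (x : G) (h : (idx x).Coprime q) :
    ∀ y ∈ Cfsg.pCore q G, x * y = y * x := by
  have hq : q.Prime := Fact.out
  obtain ⟨S⟩ : Nonempty (Sylow q ↥(Subgroup.centralizer ({x} : Set G))) := inferInstance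
  have hP : IsPGroup q ((S : Subgroup ↥(Subgroup.centralizer ({x} : Set G))).map
      (Subgroup.centralizer ({x} : Set G)).subtype) := S.2.map _
  have hi : ¬ q ∣ ((S : Subgroup ↥(Subgroup.centralizer ({x} : Set G))).map
      (Subgroup.centralizer ({x} : Set G)).subtype).index := by
    rw [Subgroup.index_map_subtype]
    intro hd
    rcases (Nat.Prime.dvd_mul hq).mp hd with h1 | h1
    · exact S.not_dvd_index h1
    · exact (Nat.Prime.coprime_iff_not_dvd hq).mp h.symm h1
  intro y hy
  have h1 : y ∈ (hP.toSylow hi : Subgroup G) := Cfsg.Agent.Lib.Lead.pCore_le_sylow _ hy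
  have h2 : y ∈ Subgroup.centralizer ({x} : Set G) := Subgroup.map_subtype_le _ h1
  exact Subgroup.mem_centralizer_iff.mp h2 x (Set.mem_singleton _)

end Cfsg.Agent.Lib.Helper54.QB
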