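import Mathlib
import Cfsg.Agent.Lib.Helper61.QB.DefsG

set_option autoImplicit false

namespace Cfsg.Agent.Lib.Helper54.QB

open Cfsg.Agent.Lib.Helper61.QB

universe u

theorem central_hall_S1 {C : Type u} [Group C] [Finite C] {q : ℕ} [Fact q.Prime]
    (Z : Subgroup C) (hZ : ∀ z ∈ Z, ∀ c : C, z * c = c * z) (hP : IsPGroup q Z)
    (hi : Z.index.Coprime q) :
    ∃ H : Subgroup C, (Nat.card H).Coprime q ∧ (∀ c, c ∈ H ↔ (orderOf c).Coprime q) ∧
      (H = ⊥ → Z = ⊤) := by
  have hq : q.Prime := Fact.out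
  haveI : Z.Normal := ⟨fun z hz c => by rw [← hZ z hz c, mul_inv_cancel_right]; exact hz⟩
  obtain ⟨k, hk⟩ := IsPGroup.iff_card.mp hP
  have hco : (Nat.card Z).Coprime Z.index := by
    rw [hk]
    exact Nat.Coprime.pow_left _ hi.symm
  obtain ⟨H, hH⟩ := Subgroup.exists_right_complement'_of_coprime hco
  have hcard : Z.index = Nat.card H := hH.symm.index_eq_card
  refine ⟨H, hcard ▸ hi, fun c => ⟨fun hc => ?_, fun hc => ?_⟩, fun hb => ?_⟩
  · exact Nat.Coprime.coprime_dvd_left (H.orderOf_dvd_natCard hc) (hcard ▸ hi)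
  · obtain ⟨⟨⟨z, hz⟩, ⟨h, hh⟩⟩, hzh, _⟩ := hH.existsUnique c
    simp only at hzh
    have hcomm : Commute z h := hZ z hz h
    have h1 : c ^ Nat.card H = z ^ Nat.card H := by
      rw [← hzh, hcomm.mul_pow]
      have : h ^ Nat.card H = 1 := orderOf_dvd_iff_pow_eq_one.mp (H.orderOf_dvd_natCard hh)
      rw [this, mul_one]
    have h2 : z ^ (Nat.card H * orderOf c) = 1 := by
      rw [pow_mul, ← h1, ← pow_mul, mul_comm, pow_mul, pow_orderOf_eq_one, one_pow]
    have h3 : orderOf z ∣ Nat.gcd (q ^ k) (Nat.card H * orderOf c) :=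
      Nat.dvd_gcd (hk ▸ Z.orderOf_dvd_natCard hz) (orderOf_dvd_of_pow_eq_one h2)
    have h4 : Nat.Coprime (q ^ k) (Nat.card H * orderOf c) :=
      Nat.Coprime.pow_left _ (Nat.Coprime.mul_right (hcard ▸ hi).symm hc.symm)
    rw [h4.gcd_eq_one, Nat.dvd_one, orderOf_eq_one_iff] at h3
    rw [← hzh, h3, one_mul]
    exact hh
  · rw [← Subgroup.index_eq_one, hcard, hb]
    exact Subgroup.card_bot

variable {G : Type u} [Group G] [Finite G] {q : ℕ} [Fact q.Prime]

/-- [S1] -/
theorem centralizer_le_of_core_free (V : Subgroup G) [V.Normal]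
    (hab : ∀ x ∈ V, ∀ y ∈ V, x * y = y * x) (hV : IsPGroup q V) (hi : V.index.Coprime q)
    (hcf : ∀ N : Subgroup G, N.Normal → (Nat.card N).Coprime q → N = ⊥) :
    Subgroup.centralizer (V : Set G) ≤ V := by
  have hCn : (Subgroup.centralizer (V : Set G)).Normal := Subgroup.normal_centralizer
  obtain ⟨H, hHc, hHm, hHb⟩ := central_hall_S1 (q := q)
    (V.subgroupOf (Subgroup.centralizer (V : Set G)))
    (by
      intro z hz c
      apply Subtype.ext
      exact Subgroup.mem_centralizer_iff.mp c.2 z.1 (Subgroup.mem_subgroupOf.mp hz))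
    hV.comap_subtype
    (Nat.Coprime.coprime_dvd_left (Subgroup.relIndex_dvd_index_of_normal V _) hi)
  have hinj : Function.Injective (Subgroup.centralizer (V : Set G)).subtype :=
    Subgroup.subtype_injective _
  have hN : (H.map (Subgroup.centralizer (V : Set G)).subtype).Normal := by
    refine ⟨fun n hn g => ?_⟩
    obtain ⟨h, hh, rfl⟩ := Subgroup.mem_map.mp hn
    refine Subgroup.mem_map.mpr ⟨⟨g * h.1 * g⁻¹, hCn.conj_mem _ h.2 g⟩, ?_, rfl⟩
    rw [hHm, ← Subgroup.orderOf_coe]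
    have h1 := (hHm h).mp hh
    rw [← Subgroup.orderOf_coe] at h1
    have e : orderOf (g * h.1 * g⁻¹) = orderOf h.1 := by
      have := (MulAut.conj g).orderOf_eq h.1
      simpa using this
    show (orderOf (g * h.1 * g⁻¹)).Coprime q
    rw [e]
    exact h1
  have hb := hcf _ hN (by rw [Subgroup.card_map_of_injective hinj]; exact hHc)
  rw [Subgroup.map_eq_bot_iff_of_injective _ hinj] at hb
  exact Subgroup.subgroupOf_eq_top.mp (hHb hb)

end Cfsg.Agent.Lib.Helper54.QB
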