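import Mathlib
import Cfsg.Agent.Lib.Helper61.QB.DefsG

set_option autoImplicit false

namespace Cfsg.Agent.Lib.Helper54.QB

open Cfsg.Agent.Lib.Helper61.QB

universe u

variable {G : Type u} [Group G] [Finite G] {q : ℕ} [Fact q.Prime]

omit [Finite G] [Fact q.Prime] in
theorem step_S2a (V : Subgroup G) [hn : V.Normal]
    (hab : ∀ x ∈ V, ∀ y ∈ V, x * y = y * x) (h : G)
    (hh : (orderOf h).Coprime q) (hΩ : ∀ v ∈ V, v ^ q = 1 → h * v = v * h)
    (v : G) (hv : v ∈ V) (hvq : h * v ^ q = v ^ q * h) : h * v = v * h := by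
  have hc : h * v * h⁻¹ ∈ V := hn.conj_mem v hv h
  have hdV : v⁻¹ * (h * v * h⁻¹) ∈ V := V.mul_mem (V.inv_mem hv) hc
  have hcomm : Commute v⁻¹ (h * v * h⁻¹) := hab _ (V.inv_mem hv) _ hc
  have hdq : (v⁻¹ * (h * v * h⁻¹)) ^ q = 1 := by
    rw [hcomm.mul_pow, conj_pow, hvq, mul_inv_cancel_right, inv_pow, inv_mul_cancel]
  have hcd : Commute h (v⁻¹ * (h * v * h⁻¹)) := hΩ _ hdV hdq
  obtain ⟨d, hd⟩ : ∃ d, d = v⁻¹ * (h * v * h⁻¹) := ⟨_, rfl⟩
  rw [← hd] at hcd hdq
  have hvd : h * v * h⁻¹ = v * d := by rw [hd]; group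
  have claim : ∀ j : ℕ, h ^ j * v * (h ^ j)⁻¹ = v * d ^ j := by
    intro j
    induction j with
    | zero => simp
    | succ j ih =>
      have e1 : h ^ (j + 1) * v * (h ^ (j + 1))⁻¹ = h * (h ^ j * v * (h ^ j)⁻¹) * h⁻¹ := by
        rw [pow_succ']
        group
      rw [e1, ih]
      have e2 : h * d ^ j = d ^ j * h := (hcd.pow_right j).eq
      calc h * (v * d ^ j) * h⁻¹
          = (h * v * h⁻¹) * (h * d ^ j) * h⁻¹ := by group
        _ = (v * d) * (d ^ j * h) * h⁻¹ := by rw [e2, hvd]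
        _ = v * (d * d ^ j) := by group
        _ = v * d ^ (j + 1) := by rw [pow_succ']
  have h1 := claim (orderOf h)
  rw [pow_orderOf_eq_one] at h1
  have h2 : d ^ orderOf h = 1 := by
    have : v * 1 = v * d ^ orderOf h := by simpa using h1
    exact (mul_left_cancel this).symm
  have hd1 : orderOf d ∣ Nat.gcd (orderOf h) q :=
    Nat.dvd_gcd (orderOf_dvd_of_pow_eq_one h2) (orderOf_dvd_of_pow_eq_one hdq)
  rw [hh.gcd_eq_one, Nat.dvd_one, orderOf_eq_one_iff] at hd1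
  have h3 : h * v * h⁻¹ = v := by rw [hvd, hd1, mul_one]
  calc h * v = h * v * h⁻¹ * h := by group
    _ = v * h := by rw [h3]

/-- [S2a] -/
theorem commute_of_commute_omega (V : Subgroup G) [V.Normal]
    (hab : ∀ x ∈ V, ∀ y ∈ V, x * y = y * x) (hV : IsPGroup q V) (h : G)
    (hh : (orderOf h).Coprime q) (hΩ : ∀ v ∈ V, v ^ q = 1 → h * v = v * h) :
    ∀ v ∈ V, h * v = v * h := by
  have key : ∀ k : ℕ, ∀ v ∈ V, v ^ (q ^ k) = 1 → h * v = v * h := by
    intro k
    induction k with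
    | zero =>
      intro v _ hv1
      rw [pow_zero, pow_one] at hv1
      rw [hv1, mul_one, one_mul]
    | succ k ih =>
      intro v hv hv1
      apply step_S2a V hab h hh hΩ v hv
      apply ih _ (V.pow_mem hv q)
      rw [← pow_mul, ← pow_succ']
      exact hv1
  intro v hv
  obtain ⟨k, hk⟩ := hV ⟨v, hv⟩
  exact key k v hv (by simpa using congrArg Subtype.val hk)

end Cfsg.Agent.Lib.Helper54.QB
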