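import Mathlib
import Cfsg.Agent.Lib.Helper61.QB.DefsG

set_option autoImplicit false

namespace Cfsg.Agent.Lib.Helper54.QB

open Cfsg.Agent.Lib.Helper61.QB

universe u

theorem lin0_S3a {G : Type u} [Group G] {q : ℕ} {M : Type u} [AddCommGroup M]
    [Module (ZMod q) M] (ψ : G → M ≃+ M) (hψ : ∀ g h x, ψ (g * h) x = ψ g (ψ h x)) :
    ∃ φ : G →* (M ≃ₗ[ZMod q] M), ∀ (g : G) (x : M), φ g x = ψ g x := by
  refine ⟨MonoidHom.mk' (fun g => AddEquiv.toLinearEquiv (ψ g)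
        (fun c x => ZMod.map_smul (ψ g) c x)) ?_, fun g x => rfl⟩
  intro g h
  apply LinearEquiv.ext
  intro x
  rw [LinearEquiv.mul_apply]
  exact hψ g h x

theorem lin_S3a {G : Type u} [Group G] {q : ℕ} {A : Type u} [CommGroup A] [Finite A]
    (hexp : ∀ x : A, x ^ q = 1) (ψ : G →* MulAut A) :
    ∃ (M : Type u) (_ : AddCommGroup M) (_ : Module (ZMod q) M) (_ : Finite M) (e : A ≃ M)
      (φ : G →* (M ≃ₗ[ZMod q] M)), ∀ (g : G) (x : A), φ g (e x) = e (ψ g x) := by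
  letI mod : Module (ZMod q) (Additive A) := AddCommGroup.zmodModule (n := q) (fun x => by
    have := hexp x.toMul
    exact congrArg Additive.ofMul this)
  obtain ⟨φ, hφ⟩ := lin0_S3a (q := q) (M := Additive A)
    (fun g => MulEquiv.toAdditive (ψ g)) (by
      intro g h x
      rw [map_mul]
      rfl)
  refine ⟨Additive A, inferInstance, mod, inferInstance, Additive.ofMul, φ, fun g x => ?_⟩
  rw [hφ]
  rfl

variable {G : Type u} [Group G] [Finite G] {q : ℕ} [Fact q.Prime]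

/-- [S3a] -/
theorem exists_linearization (Ω : Subgroup G) [Ω.Normal] (hab : ∀ x ∈ Ω, ∀ y ∈ Ω, x * y = y * x)
    (hexp : ∀ x ∈ Ω, x ^ q = 1) :
    ∃ (M : Type u) (_ : AddCommGroup M) (_ : Module (ZMod q) M) (_ : Finite M) (e : Ω ≃ M)
      (φ : G →* (M ≃ₗ[ZMod q] M)),
      ∀ (g : G) (x y : Ω), (y : G) = g * x * g⁻¹ → φ g (e x) = e y := by
  letI cg : CommGroup Ω :=
    { (inferInstance : Group Ω) with mul_comm := fun a b => Subtype.ext (hab a a.2 b b.2) }
  obtain ⟨M, i1, i2, i3, e, φ, h⟩ := lin_S3a (G := G) (q := q) (A := Ω)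
    (fun x => Subtype.ext (hexp x x.2)) (MulAut.conjNormal (H := Ω))
  refine ⟨M, i1, i2, i3, e, φ, fun g x y hy => ?_⟩
  rw [h]
  congr 1
  apply Subtype.ext
  rw [hy]
  rfl

end Cfsg.Agent.Lib.Helper54.QB
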